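import Cfsg.Agent.SpecEight.Elements
import Cfsg.Agent.PSpFourSpec.Model
import Cfsg.Agent.Forms.RankParity
import Mathlib.LinearAlgebra.Eigenspace.Zero
import Mathlib.FieldTheory.Finite.GaloisField

/-!
# Unboundedly many groups with the spectrum of `Sp₈(2^m)`

Extensions of `Ω₈⁻` by copies of its natural module.
-/

set_option autoImplicit false

open QuadraticMap Matrix CfsgLib.Forms CfsgLib.SemiClasses

namespace CfsgLib.SpecEight

section Algebra

theorem geom_sum_mul_range {R : Type*} [Ring R] (x : R) (a : ℕ) : ∀ m : ℕ,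
    ∑ i ∈ Finset.range (a * m), x ^ i = (∑ i ∈ Finset.range a, x ^ i) * ∑ l ∈ Finset.range m, (x ^ a) ^ l
  | 0 => by simp
  | m + 1 => by
    rw [Nat.mul_succ, Finset.sum_range_add, geom_sum_mul_range x a m, Finset.sum_range_succ (fun l => (x ^ a) ^ l) m,
      mul_add, Finset.sum_mul (Finset.range a) (fun i => x ^ i) ((x ^ a) ^ m)]
    congr 1
    refine Finset.sum_congr rfl fun i _ => ?_
    rw [← pow_mul, ← pow_add, add_comm]

variable {F : Type*} [Field F] [CharP F 2] {ι : Type} [Fintype ι] [DecidableEq ι]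

theorem geom_sum_two_pow (M : Matrix ι ι F) (n : ℕ) : ∀ c : ℕ,
    ∑ i ∈ Finset.range (n * 2 ^ c), M ^ i =
      (M - 1) ^ (2 ^ c - 1) * (∑ i ∈ Finset.range n, M ^ i) ^ 2 ^ c
  | 0 => by simp
  | c + 1 => by
    have hfG : Commute (M - 1) (∑ i ∈ Finset.range n, M ^ i) :=
      Commute.sum_right _ _ _ fun i _ => ((Commute.refl M).sub_left (Commute.one_left M)).pow_right i
    have h1 : (1 : Matrix ι ι F) + M ^ (n * 2 ^ c) = (M - 1) ^ 2 ^ c * (∑ i ∈ Finset.range n, M ^ i) ^ 2 ^ c := by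
      rw [← hfG.mul_pow, mul_geom_sum, sub_one_pow_two_pow, ← pow_mul, add_comm,
        show (M ^ (n * 2 ^ c) - 1 : Matrix ι ι F) = M ^ (n * 2 ^ c) + 1 from ?_]
      ext i j
      rw [Matrix.sub_apply, Matrix.add_apply, CharTwo.sub_eq_add]
    rw [pow_succ, ← mul_assoc, geom_sum_mul_range, geom_sum_two_pow M n c, Finset.sum_range_succ,
      Finset.sum_range_one, pow_zero, pow_one, h1, mul_assoc,
      ← mul_assoc ((∑ i ∈ Finset.range n, M ^ i) ^ 2 ^ c), (hfG.symm.pow_pow _ _).eq, mul_assoc,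
      ← mul_assoc ((M - 1) ^ (2 ^ c - 1)), ← pow_add, ← pow_add]
    congr 2 <;> (have := Nat.one_le_pow c 2 (by norm_num); omega)

variable {V : Type*} [AddCommGroup V] [Module F V] [FiniteDimensional F V]

omit [CharP F 2] in
theorem pow_pred_eq_zero (f : Module.End F V) {N : ℕ} (hN : Module.finrank F (LinearMap.ker (f ^ N)) ≤ N)
    (h1 : Module.finrank F (LinearMap.ker f) ≠ 1) {x : V} (hx : (f ^ N) x = 0) : (f ^ (N - 1)) x = 0 := by
  by_contra hne
  obtain ⟨N, rfl⟩ : ∃ k, N = k + 1 := ⟨N - 1, by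
    rcases N with _ | N
    · exact absurd hx hne
    · rfl⟩
  rw [Nat.add_sub_cancel] at hne
  have hstep : ∀ j, j ≤ N → j + Module.finrank F (LinearMap.ker f) ≤ Module.finrank F (LinearMap.ker (f ^ (j + 1))) := by
    intro j
    induction j with
    | zero => intro _; rw [Nat.zero_add, Nat.zero_add, pow_one]
    | succ j ih =>
      intro hj
      have hlt : LinearMap.ker (f ^ (j + 1)) < LinearMap.ker (f ^ (j + 1 + 1)) := by
        refine lt_of_le_of_ne (fun v hv => ?_) fun e => hne ?_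
        · rw [LinearMap.mem_ker, pow_succ', Module.End.mul_apply, LinearMap.mem_ker.1 hv, map_zero]
        · have hmem : (f ^ (N - (j + 1))) x ∈ LinearMap.ker (f ^ (j + 1 + 1)) := by
            rw [LinearMap.mem_ker, ← Module.End.mul_apply, ← pow_add, show j + 1 + 1 + (N - (j + 1)) = N + 1 by omega, hx]
          rw [← e, LinearMap.mem_ker, ← Module.End.mul_apply, ← pow_add,
            show j + 1 + (N - (j + 1)) = N by omega] at hmem
          exact hmem
      have := Submodule.finrank_lt_finrank_of_lt hlt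
      have := ih (by omega)
      omega
  have := hstep N le_rfl
  have hpos : Module.finrank F (LinearMap.ker f) ≠ 0 := fun h0 => hne (by
    have : (f ^ N) x ∈ LinearMap.ker f := by
      rw [LinearMap.mem_ker, ← Module.End.mul_apply, ← pow_succ', hx]
    rwa [Submodule.finrank_eq_zero.1 h0, Submodule.mem_bot] at this)
  omega

end Algebra

variable {F : Type} [Field F] [Finite F] [CharP F 2] {ι : Type} [Fintype ι] [DecidableEq ι]
  {Q : QuadraticForm F (ι → F)}

/-- For an element of `Ω` the long sums vanish. -/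
theorem sum_eq_zero_of_mem_Omega (hQ : (polarBilin Q).Nondegenerate) (hι : Fintype.card ι = 2 * 4)
    (g : Cfsg.isometryGroup F ⇑Q) (hg : g ∈ Cfsg.Omega F ⇑Q) :
    ∃ n, Ord (Nat.card F) n ∧ g ^ n = 1 ∧ ∑ i ∈ Finset.range n, mat g ^ i = 0 := by
  obtain ⟨L, c, hL, hord, hdvd⟩ := data_of_isometry hQ hι g
  refine ⟨L * 2 ^ c, hord, mat_ext (by rw [mat_pow, pow_eq_one_of_data _ hdvd, mat_one]), ?_⟩
  set M := mat g with hM
  rw [geom_sum_two_pow]
  refine Matrix.ext_of_mulVec_single fun i => ?_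
  rw [← Matrix.mulVec_mulVec, Matrix.zero_mulVec]
  generalize (Pi.single i 1 : ι → F) = v
  let f : Module.End F (ι → F) := Matrix.toLin' (M - 1)
  have hf : ∀ j, f ^ j = Matrix.toLin' ((M - 1) ^ j) := fun j => (Matrix.toLin'_pow (M - 1) j).symm
  have hkill : (f ^ 2 ^ c) ((∑ i ∈ Finset.range L, M ^ i) ^ 2 ^ c *ᵥ v) = 0 := by
    have hfG : Commute (M - 1) (∑ i ∈ Finset.range L, M ^ i) :=
      Commute.sum_right _ _ _ fun i _ => ((Commute.refl M).sub_left (Commute.one_left M)).pow_right i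
    rw [hf, Matrix.toLin'_apply, Matrix.mulVec_mulVec, ← hfG.mul_pow, mul_geom_sum, sub_one_pow_two_pow, ← pow_mul,
      pow_eq_one_of_data _ hdvd, sub_self, Matrix.zero_mulVec]
  have key := pow_pred_eq_zero f (N := 2 ^ c) ?_ ?_ hkill
  · rwa [hf, Matrix.toLin'_apply] at key
  · -- the algebraic multiplicity of the eigenvalue one
    classical
    have hf1 : f = Matrix.toLin' M - (1 : F) • 1 := by
      show Matrix.toLin' (M - 1) = _
      rw [map_sub, Matrix.toLin'_one, one_smul]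
      rfl
    have h1 := LinearMap.finrank_genEigenspace_le (Matrix.toLin' M) (1 : F) (2 ^ c)
    rw [Module.End.genEigenspace_nat, ← hf1, Matrix.charpoly_toLin'] at h1
    refine h1.trans ?_
    have hne : (Polynomial.X ^ L - 1 : Polynomial F) ≠ 0 := by
      rw [← map_one Polynomial.C]
      exact (Polynomial.monic_X_pow_sub_C (1 : F) (by rintro rfl; simp at hL)).ne_zero
    calc M.charpoly.rootMultiplicity 1 = M.charpoly.roots.count 1 := (Polynomial.count_roots _).symm
      _ ≤ ((Polynomial.X ^ L - 1 : Polynomial F) ^ 2 ^ c).roots.count 1 :=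
          Multiset.count_le_of_le _ (Polynomial.roots.le_of_dvd (pow_ne_zero _ hne) hdvd)
      _ = 2 ^ c * (Polynomial.X ^ L - 1 : Polynomial F).roots.count 1 := by
          rw [Polynomial.roots_pow, Multiset.count_nsmul]
      _ ≤ 2 ^ c * 1 := by
          refine Nat.mul_le_mul_left _ (Multiset.nodup_iff_count_le_one.1 (Polynomial.nodup_roots ?_) _)
          rw [Polynomial.X_pow_sub_one_separable_iff, Ne, CharP.cast_eq_zero_iff F 2]
          exact fun h => Nat.not_even_iff_odd.2 hL (even_iff_two_dvd.2 h)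
      _ = 2 ^ c := mul_one _
  · have hr : Even (M - 1).rank := (mem_Omega_iff_rank_even CharTwo.two_eq_zero hQ (by omega) ⟨4, by omega⟩ g).1 hg
    have h2 := LinearMap.finrank_range_add_finrank_ker f
    rw [Module.finrank_fintype_fun_eq_card, hι] at h2
    have : (M - 1).rank = Module.finrank F (LinearMap.range f) := by
      rfl
    obtain ⟨r, hr⟩ := hr
    omega

/-- An element of `Ω` with a vector giving an element of the extension of order a multiple of `n * 2 ^ (j + 1)`. -/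
def Mark (Q : QuadraticForm F (ι → F)) (n j : ℕ) : Prop :=
  ∃ g : Cfsg.isometryGroup F ⇑Q, g ∈ Cfsg.Omega F ⇑Q ∧ n ∣ orderOf g ∧ 2 ^ j ∣ orderOf g ∧
    ∃ v : ι → F, mat g ^ 2 ^ j *ᵥ v = v ∧ (mat g - 1) ^ (2 ^ j - 1) *ᵥ v ≠ 0

omit [CharP F 2] in
theorem mem_Omega_of_odd (hQ : (polarBilin Q).Nondegenerate) (hι : Fintype.card ι ≠ 4)
    (g : Cfsg.isometryGroup F ⇑Q) (h : Odd (orderOf g)) : g ∈ Cfsg.Omega F ⇑Q := by
  obtain ⟨k, hk⟩ := h
  have e : g = g ^ (k + 1) * g ^ (k + 1) := by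
    rw [← pow_add, show k + 1 + (k + 1) = orderOf g + 1 by omega, pow_succ, pow_orderOf_eq_one, one_mul]
  rw [e]
  exact sq_mem_Omega hQ (Or.inr hι) _

theorem exists_mark {n j : ℕ} {s : Prop} (hj : j ≤ 2) (hn : Odd n) (hp : Piece F (3 - j) s n) :
    ∃ (κ : Type) (_ : Fintype κ) (_ : DecidableEq κ) (Q : QuadraticForm F (κ → F)),
      (polarBilin Q).Nondegenerate ∧ Fintype.card κ = 2 * 4 ∧ ¬ HasHalf Q ∧ Mark Q n j := by
  classical
  obtain ⟨α, _, _, A, x, hA, hα, hAs, hx⟩ := hp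
  have inner : ∀ (β : Type) [Fintype β] [DecidableEq β] (B : QuadraticForm F (β → F))
      (u : Cfsg.isometryGroup F ⇑B) (w : β → F), (mat u - 1) ^ 2 ^ j = 0 →
      (mat u - 1) ^ (2 ^ j - 1) *ᵥ w ≠ 0 →
      n ∣ orderOf (blockHom A B (x, u)) ∧ 2 ^ j ∣ orderOf (blockHom A B (x, u)) ∧
        mat (blockHom A B (x, u)) ^ 2 ^ j *ᵥ Sum.elim (0 : α → F) w = Sum.elim (0 : α → F) w ∧
        (mat (blockHom A B (x, u)) - 1) ^ (2 ^ j - 1) *ᵥ Sum.elim (0 : α → F) w =
          Sum.elim (0 : α → F) ((mat u - 1) ^ (2 ^ j - 1) *ᵥ w) := by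
    intro β _ _ B u w h1 h2
    have hu : orderOf u = 2 ^ j := orderOf_eq_two_pow u h1 fun i hi h0 => h2 (by
      rw [pow_eq_zero_of_le (Nat.le_sub_one_of_lt (Nat.pow_lt_pow_right (by norm_num) hi)) h0, Matrix.zero_mulVec])
    refine ⟨?_, ?_, ?_, ?_⟩
    · rw [orderOf_blockHom, hx]; exact Nat.dvd_lcm_left _ _
    · rw [orderOf_blockHom, hu]; exact Nat.dvd_lcm_right _ _
    · rw [show mat (blockHom A B (x, u)) = _ from coe_blockHom (x, u), blocks_pow_mulVec, ← mat_pow, ← hu,
        pow_orderOf_eq_one, mat_one, Matrix.one_mulVec]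
    · rw [show mat (blockHom A B (x, u)) = _ from coe_blockHom (x, u), blocks_sub_one, blocks_pow_mulVec]
  rcases (by omega : j = 0 ∨ 1 ≤ j) with rfl | hj1
  · obtain ⟨β, _, _, B, u, w, hB, hβ, hBs, h1, h2⟩ := uni_zero (F := F) (¬ s)
    have hu1 : u = 1 := by
      rw [pow_zero, pow_one, sub_eq_zero] at h1
      exact mat_ext (h1.trans mat_one.symm)
    obtain ⟨d1, d2, d3, d4⟩ := inner β B u w h1 h2
    have hcard : Fintype.card (α ⊕ β) = 2 * 4 := by rw [Fintype.card_sum, hα, hβ]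
    refine ⟨α ⊕ β, inferInstance, inferInstance, sumForm A B, nondegenerate_sumForm hA hB, hcard, ?_,
      blockHom A B (x, u), ?_, d1, d2, Sum.elim 0 w, d3, ?_⟩
    · rw [hasHalf_sum_iff hA hB ⟨3, by omega⟩ ⟨1, by omega⟩, hAs, hBs]
      by_cases hs : s <;> simp [hs]
    · refine mem_Omega_of_odd (nondegenerate_sumForm hA hB) (by omega) _ ?_
      rw [orderOf_blockHom, hx, hu1, orderOf_one, Nat.lcm_one_right]
      exact hn
    · rw [d4]
      exact fun h => h2 (funext fun i => congrFun h (Sum.inr i))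
  · have huni : Uni F j True j := by
      rcases (by omega : j = 1 ∨ j = 2) with rfl | rfl
      exacts [uni_one _, uni_two _]
    obtain ⟨β, _, _, B, u, w, hB, hβ, hBs, h1, h2⟩ := huni
    obtain ⟨γ, _, _, C, hC, hγ, hCs⟩ := exists_plane F (¬ s)
    obtain ⟨d1, d2, d3, d4⟩ := inner β B u w h1 h2
    obtain ⟨a, -, -, -, -⟩ := exists_reflection hC (by omega)
    have hW : (polarBilin (sumForm A B)).Nondegenerate := nondegenerate_sumForm hA hB
    set gW := blockHom A B (x, u)
    have hQn := nondegenerate_sumForm hC hW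
    have hcard : Fintype.card (γ ⊕ (α ⊕ β)) = 2 * 4 := by rw [Fintype.card_sum, Fintype.card_sum, hα, hβ, hγ]; omega
    have h4 : Nat.card F ≠ 2 ∨ Fintype.card (γ ⊕ (α ⊕ β)) ≠ 4 := Or.inr (by omega)
    obtain ⟨ε, hε⟩ : ∃ ε, blockHom C (sumForm A B) (ε, gW) ∈ Cfsg.Omega F ⇑(sumForm C (sumForm A B)) := by
      by_cases h : blockHom C (sumForm A B) (1, gW) ∈ Cfsg.Omega F ⇑(sumForm C (sumForm A B))
      · exact ⟨1, h⟩
      · refine ⟨listGL C [a], ?_⟩
        rw [show ((listGL C [a], gW) : Cfsg.isometryGroup F ⇑C × Cfsg.isometryGroup F ⇑(sumForm A B)) =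
            (listGL C [a], 1) * (1, gW) by rw [Prod.mk_mul_mk, mul_one, one_mul], map_mul,
          Subgroup.mul_mem_iff_of_index_two (index_Omega_two CharTwo.two_eq_zero hQn h4 (by omega))]
        refine iff_of_false (fun hr => ?_) h
        rw [blockHom_left_mem_iff hC hW (Or.inr (by omega)) h4, listGL_mem_Omega hC (Or.inr (by omega))] at hr
        simp at hr
    refine ⟨γ ⊕ (α ⊕ β), inferInstance, inferInstance, sumForm C (sumForm A B), hQn, hcard, ?_,
      blockHom C (sumForm A B) (ε, gW), hε, ?_, ?_, Sum.elim 0 (Sum.elim 0 w), ?_, ?_⟩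
    · rw [hasHalf_sum_iff hC hW ⟨1, by omega⟩ ⟨3, by rw [Fintype.card_sum]; omega⟩,
        hasHalf_sum_iff hA hB ⟨3 - j, by omega⟩ ⟨j, by omega⟩, hAs, hBs, hCs]
      by_cases hs : s <;> simp [hs]
    · rw [orderOf_blockHom]; exact d1.trans (Nat.dvd_lcm_right _ _)
    · rw [orderOf_blockHom]; exact d2.trans (Nat.dvd_lcm_right _ _)
    · rw [show mat (blockHom C (sumForm A B) (ε, gW)) = _ from coe_blockHom (ε, gW), blocks_pow_mulVec, d3]
    · rw [show mat (blockHom C (sumForm A B) (ε, gW)) = _ from coe_blockHom (ε, gW), blocks_sub_one, blocks_pow_mulVec,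
        d4]
      exact fun h => h2 (funext fun i => congrFun h (Sum.inr (Sum.inr i)))

/-- Isometries as automorphisms of the additive group. -/
noncomputable def rho (Q : QuadraticForm F (ι → F)) : Cfsg.isometryGroup F ⇑Q →* (AddMonoid.End (ι → F))ˣ :=
  MonoidHom.toHomUnits
    { toFun := fun g => ({ toFun := fun v => mat g *ᵥ v
                           map_zero' := Matrix.mulVec_zero _
                           map_add' := Matrix.mulVec_add _ } : AddMonoid.End (ι → F))
      map_one' := DFunLike.ext _ _ fun v => Matrix.one_mulVec v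
      map_mul' := fun g h => DFunLike.ext _ _ fun v => (Matrix.mulVec_mulVec v _ _).symm }

omit [Finite F] [CharP F 2] in
theorem rho_apply (g : Cfsg.isometryGroup F ⇑Q) (v : ι → F) :
    ((rho Q g : (AddMonoid.End (ι → F))ˣ) : AddMonoid.End (ι → F)) v = mat g *ᵥ v := rfl

omit [Finite F] [CharP F 2] in
theorem rho_injective : Function.Injective (rho Q) := fun g h e => mat_ext (Matrix.ext_of_mulVec_single fun i => by
  rw [← rho_apply, ← rho_apply, e])

/-- The image of `Ω`. -/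
noncomputable def omegaImage (Q : QuadraticForm F (ι → F)) : Subgroup (AddMonoid.End (ι → F))ˣ :=
  (Cfsg.Omega F ⇑Q).map (rho Q)

open CfsgLib.PSpFourSpec in
theorem orders_ext (hQ : (polarBilin Q).Nondegenerate) (hι : Fintype.card ι = 2 * 4) (N : ℕ)
    (y : Ext (omegaImage Q) N) : Ord (Nat.card F) (orderOf y) := by
  obtain ⟨g, hg, hgy⟩ := y.right.2
  obtain ⟨n, hn, hgn, hsum⟩ := sum_eq_zero_of_mem_Omega hQ hι g hg
  refine hn.of_dvd (orderOf_dvd_of_pow_eq_one (pow_eq_one_of_sum y (Subtype.ext ?_) fun v => ?_))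
  · rw [SubgroupClass.coe_pow, ← hgy, ← map_pow, hgn, map_one]
    rfl
  · have e : ∀ i, app (omegaImage Q) (y.right ^ i) v = mat g ^ i *ᵥ v := fun i => by
      rw [app, SubgroupClass.coe_pow, ← hgy, ← map_pow, rho_apply, mat_pow]
    rw [Finset.sum_congr rfl fun i _ => e i, ← Matrix.sum_mulVec, hsum, Matrix.zero_mulVec]

open CfsgLib.PSpFourSpec in
theorem exists_ext_mark (N : ℕ) {n j : ℕ} (hn : Odd n) (h : Mark Q n j) :
    ∃ y : Ext (omegaImage Q) (N + 1), n * 2 ^ (j + 1) ∣ orderOf y := by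
  obtain ⟨g, hg, hd1, hd2, v, hfix, hne⟩ := h
  let a : ↥(omegaImage Q) := ⟨rho Q g, g, hg, rfl⟩
  let y : Ext (omegaImage Q) (N + 1) := ⟨Multiplicative.ofAdd fun _ => v, a⟩
  refine ⟨y, ?_⟩
  set m := orderOf y
  have hm : g ^ m = 1 := by
    refine rho_injective ?_
    have h1 := congrArg SemidirectProduct.right (pow_orderOf_eq_one y)
    rw [right_pow] at h1
    have h2 := congrArg Subtype.val h1
    rw [SubgroupClass.coe_pow] at h2
    rw [map_pow, map_one]
    exact h2
  have hgm := orderOf_dvd_of_pow_eq_one hm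
  obtain ⟨k, hk⟩ := hd2.trans hgm
  have hk2 : Even k := by
    by_contra hodd
    refine hne ?_
    have h1 := congrFun (congrArg Multiplicative.toAdd (congrArg SemidirectProduct.left (pow_orderOf_eq_one y))) 0
    rw [pow_apply] at h1
    have e : ∀ i, app (omegaImage Q) (y.right ^ i) (y.left.toAdd 0) = mat g ^ i *ᵥ v := fun i => by
      rw [app, SubgroupClass.coe_pow, ← mat_pow, ← rho_apply, map_pow]
      rfl
    have hfix' : ∀ l, (mat g ^ 2 ^ j) ^ l *ᵥ v = v := fun l => by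
      induction l with
      | zero => simp
      | succ l ih => rw [pow_succ', ← Matrix.mulVec_mulVec, ih, hfix]
    have hk1 : (∑ l ∈ Finset.range k, (mat g ^ 2 ^ j) ^ l) *ᵥ v = v := by
      rw [Matrix.sum_mulVec, Finset.sum_congr rfl fun l _ => hfix' l, Finset.sum_const, Finset.card_range,
        ← Nat.cast_smul_eq_nsmul F, CharP.cast_eq_mod F 2, Nat.odd_iff.1 (Nat.not_even_iff_odd.1 hodd), Nat.cast_one,
        one_smul]
    rw [Finset.sum_congr rfl fun i _ => e i, ← Matrix.sum_mulVec, show orderOf y = m from rfl, hk,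
      geom_sum_mul_range, ← Matrix.mulVec_mulVec, hk1] at h1
    have hgs := geom_sum_two_pow (mat g) 1 j
    rw [one_mul, Finset.sum_range_one, pow_zero, one_pow, mul_one] at hgs
    rw [hgs] at h1
    exact h1
  refine (Nat.Coprime.pow_right _ (Nat.coprime_two_right.2 hn)).mul_dvd_of_dvd_of_dvd (hd1.trans hgm) ?_
  rw [hk, pow_succ]
  exact Nat.mul_dvd_mul_left _ (even_iff_two_dvd.1 hk2)

omit [Finite F] [CharP F 2] in
theorem mark_map {κ : Type} [Fintype κ] [DecidableEq κ] {Q' : QuadraticForm F (κ → F)} (φ : (ι → F) ≃ₗ[F] (κ → F))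
    (ψ : Cfsg.isometryGroup F ⇑Q →* Cfsg.isometryGroup F ⇑Q') (hψ : Function.Injective ψ)
    (hφ : ∀ g v, mat (ψ g) *ᵥ φ v = φ (mat g *ᵥ v)) {n j : ℕ} (h : Mark Q n j) : Mark Q' n j := by
  obtain ⟨g, hg, h1, h2, v, h3, h4⟩ := h
  have hpow : ∀ i, mat (ψ g) ^ i *ᵥ φ v = φ (mat g ^ i *ᵥ v) := fun i => by
    rw [← mat_pow, ← map_pow, hφ, mat_pow]
  have hsub : ∀ i, (mat (ψ g) - 1) ^ i *ᵥ φ v = φ ((mat g - 1) ^ i *ᵥ v) := fun i => by
    induction i with
    | zero => simp
    | succ i ih =>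
      rw [pow_succ', ← Matrix.mulVec_mulVec, ih, sub_mulVec, Matrix.one_mulVec, hφ, ← map_sub, pow_succ',
        ← Matrix.mulVec_mulVec, sub_mulVec, Matrix.one_mulVec]
  refine ⟨ψ g, ?_, by rwa [orderOf_injective _ hψ], by rwa [orderOf_injective _ hψ], φ v, by rw [hpow, h3], ?_⟩
  · have : (commutator (Cfsg.isometryGroup F ⇑Q)).map ψ ≤ commutator (Cfsg.isometryGroup F ⇑Q') := by
      rw [commutator_def, Subgroup.map_commutator, commutator_def]
      exact Subgroup.commutator_mono le_top le_top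
    exact this ⟨g, hg, rfl⟩
  · rw [hsub, ne_eq, LinearEquiv.map_eq_zero_iff]
    exact h4

open CfsgLib.PSpFourSpec in
theorem exists_isospectral' {K : Type} [Field K] [Finite K] [CharP K 2] (N : ℕ) :
    ∃ (H : Type) (_ : Group H) (_ : Fintype H), N < Fintype.card H ∧
      Set.range (orderOf : H → ℕ) = {d | Ord (Nat.card K) d} := by
  classical
  obtain ⟨c, hc⟩ := exists_irreducible_quadratic K
  have hab := anis_of_irred hc
  set Q₀ := quadMinus K 3 1 c
  have hQ := nondegenerate_quadMinus (F := K) 3 hab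
  have hι : Fintype.card ((Fin 3 ⊕ Fin 3) ⊕ Fin 2) = 2 * 4 := by simp
  have : Finite (Ext (omegaImage Q₀) (N + 1)) := finite_ext _
  refine ⟨Ext (omegaImage Q₀) (N + 1), inferInstance, Fintype.ofFinite _, ?_,
    range_eq_of (orders_ext hQ hι _) fun T hT => ?_⟩
  · refine lt_of_lt_of_eq ?_ (@Nat.card_eq_fintype_card _ (Fintype.ofFinite _))
    exact lt_card_ext N (v := Pi.single (Sum.inr 0) (1 : K)) (by simp)
  · rcases semisimple_parts T hT with ⟨hodd, ι', _, _, Q, g, hn, hcard, hs, hg⟩ | ⟨j, n, s, hj, hTn, hn, hp⟩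
    · obtain ⟨φ, ψ, hψ, -⟩ := exists_quadMinus hab hn hcard hs.1
      have ho : orderOf (ψ g) = T := by rw [orderOf_injective _ hψ, hg]
      refine ⟨SemidirectProduct.inr ⟨rho Q₀ (ψ g), ψ g, mem_Omega_of_odd hQ (by simp) _ (ho.symm ▸ hodd), rfl⟩, ?_⟩
      rw [orderOf_injective _ SemidirectProduct.inr_injective, ← Subgroup.orderOf_coe]
      show T ∣ orderOf (rho Q₀ (ψ g))
      rw [orderOf_injective _ rho_injective, ho]
    · obtain ⟨κ, _, _, Q, hQn, hcard, hhalf, hmark⟩ := exists_mark hj hn hp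
      obtain ⟨φ, ψ, hψ, hφ⟩ := exists_quadMinus hab hQn hcard hhalf
      rw [hTn]
      exact exists_ext_mark N hn (mark_map φ ψ hψ hφ hmark)

end CfsgLib.SpecEight
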